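import Mathlib

/-!
# Linear algebra over `F₇` for the row `L₃(4)`, `p = 7` of S4816 (helper425)

`eight_le` : commuting operators `h ≠ 1`, `c` of order three whose joint characters are permuted transitively.
-/

set_option autoImplicit false

namespace Cfsg.Agent.H425.RIM.Lin

open Module

variable {V : Type*} [AddCommGroup V] [Module (ZMod 7) V]

/-- joint eigenvectors -/
def X (h c : Module.End (ZMod 7) V) (s : ZMod 3 × ZMod 3) : Prop :=
  ∃ v : V, v ≠ 0 ∧ h v = (2 : ZMod 7) ^ s.1.val • v ∧ c v = (2 : ZMod 7) ^ s.2.val • v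

/-- the projections -/
def pj (f : Module.End (ZMod 7) V) (j : ZMod 3) : Module.End (ZMod 7) V :=
  1 + (4 : ZMod 7) ^ j.val • f + (2 : ZMod 7) ^ j.val • f ^ 2

theorem pj_apply (f : Module.End (ZMod 7) V) (j : ZMod 3) (v : V) :
    pj f j v = v + (4 : ZMod 7) ^ j.val • f v + (2 : ZMod 7) ^ j.val • f (f v) := by
  simp [pj, pow_two]

theorem four_two : ∀ j : ZMod 3, (2 : ZMod 7) ^ j.val * 4 ^ j.val = 1 := by decide

theorem two_two : ∀ j : ZMod 3, (2 : ZMod 7) ^ j.val * 2 ^ j.val = 4 ^ j.val := by decide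

theorem pj_eig {f : Module.End (ZMod 7) V} (f3 : f ^ 3 = 1) (j : ZMod 3) (v : V) :
    f (pj f j v) = (2 : ZMod 7) ^ j.val • pj f j v := by
  have h1 : f (f (f v)) = v := by
    have := congrArg (fun g : Module.End (ZMod 7) V => g v) f3
    simpa [pow_succ] using this
  rw [pj_apply, map_add, map_add, map_smul, map_smul, h1, smul_add, smul_add, smul_smul, smul_smul, four_two, two_two,
    one_smul]
  have h2 : (4 : ZMod 7) ^ j.val • f (f v) + (2 : ZMod 7) ^ j.val • v =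
      (2 : ZMod 7) ^ j.val • v + (4 : ZMod 7) ^ j.val • f (f v) := add_comm _ _
  rw [add_assoc, h2]
  abel

theorem three_smul (v : V) (h : (3 : ZMod 7) • v = 0) : v = 0 := by
  have h1 : (5 : ZMod 7) • (3 : ZMod 7) • v = 0 := by rw [h, smul_zero]
  rw [smul_smul, (by decide : (5 : ZMod 7) * 3 = 1), one_smul] at h1
  exact h1

theorem pj_sum (f : Module.End (ZMod 7) V) (v : V) : pj f 0 v + pj f 1 v + pj f 2 v = (3 : ZMod 7) • v := by
  rw [pj_apply, pj_apply, pj_apply]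
  have e0 : (0 : ZMod 3).val = 0 := rfl
  have e1 : (1 : ZMod 3).val = 1 := rfl
  have e2 : (2 : ZMod 3).val = 2 := rfl
  rw [e0, e1, e2]
  have h1 : v + (4 : ZMod 7) ^ 0 • f v + (2 : ZMod 7) ^ 0 • f (f v) + (v + (4 : ZMod 7) ^ 1 • f v +
      (2 : ZMod 7) ^ 1 • f (f v)) + (v + (4 : ZMod 7) ^ 2 • f v + (2 : ZMod 7) ^ 2 • f (f v)) =
      (3 : ZMod 7) • v + ((4 : ZMod 7) ^ 0 + 4 ^ 1 + 4 ^ 2) • f v + ((2 : ZMod 7) ^ 0 + 2 ^ 1 + 2 ^ 2) • f (f v) := by
    have h3 : (3 : ZMod 7) • v = v + v + v := by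
      rw [(by decide : (3 : ZMod 7) = 1 + 1 + 1), add_smul, add_smul, one_smul]
    rw [h3, add_smul, add_smul, add_smul, add_smul]
    abel
  rw [h1, (by decide : (4 : ZMod 7) ^ 0 + 4 ^ 1 + 4 ^ 2 = 0), (by decide : (2 : ZMod 7) ^ 0 + 2 ^ 1 + 2 ^ 2 = 0),
    zero_smul, zero_smul, add_zero, add_zero]

theorem pj_ne {f : Module.End (ZMod 7) V} {v : V} (hv : v ≠ 0) : ∃ j, pj f j v ≠ 0 := by
  by_contra hno
  push Not at hno
  have h1 := pj_sum f v
  rw [hno, hno, hno, add_zero, add_zero] at h1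
  exact hv (three_smul v h1.symm)

theorem pj_comm {f g : Module.End (ZMod 7) V} (hc : g * f = f * g) (j : ZMod 3) (v : V) :
    g (pj f j v) = pj f j (g v) := by
  have h1 : ∀ x, g (f x) = f (g x) := fun x => congrArg (fun a : Module.End (ZMod 7) V => a x) hc
  rw [pj_apply, pj_apply, map_add, map_add, map_smul, map_smul, h1, h1, h1]

theorem exists_ne {h c : Module.End (ZMod 7) V} (hc : h * c = c * h) (h3 : h ^ 3 = 1) (c3 : c ^ 3 = 1) (hne : h ≠ 1) :
    ∃ s : ZMod 3 × ZMod 3, s ≠ 0 ∧ X h c s := by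
  obtain ⟨v, hv⟩ : ∃ v, h v ≠ v := by
    by_contra hno
    push Not at hno
    exact hne (LinearMap.ext hno)
  obtain ⟨j, hj, hu⟩ : ∃ j : ZMod 3, j ≠ 0 ∧ pj h j v ≠ 0 := by
    by_contra hno
    push Not at hno
    apply hv
    have h1 := pj_sum h v
    rw [hno 1 (by decide), hno 2 (by decide), add_zero, add_zero] at h1
    have h2 := pj_eig h3 0 v
    rw [h1, map_smul, (by rfl : (0 : ZMod 3).val = 0), pow_zero, one_smul] at h2
    have h3 : (3 : ZMod 7) • (h v - v) = 0 := by rw [smul_sub, h2, sub_self]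
    exact sub_eq_zero.1 (three_smul _ h3)
  obtain ⟨i, hi⟩ := pj_ne (f := c) hu
  refine ⟨(j, i), fun h0 => hj (congrArg Prod.fst h0), _, hi, ?_, pj_eig c3 i _⟩
  rw [pj_comm hc, pj_eig h3, map_smul]

theorem add_val : ∀ i j : ZMod 3, (2 : ZMod 7) ^ i.val * 2 ^ j.val = 2 ^ (i + j).val := by decide

theorem X.step {h c n : Module.End (ZMod 7) V} (hn : ∀ v, n v = 0 → v = 0) {s : ZMod 3 × ZMod 3} (hs : X h c s)
    (a b a' b' : ℕ) (e1 : h * n = n * (h ^ a * c ^ b)) (e2 : c * n = n * (h ^ a' * c ^ b')) :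
    X h c (a * s.1 + b * s.2, a' * s.1 + b' * s.2) := by
  obtain ⟨v, hv, h1, h2⟩ := hs
  have hp : ∀ k : ℕ, (h ^ k) v = (2 : ZMod 7) ^ ((k : ZMod 3) * s.1).val • v := by
    intro k
    induction k with
    | zero => simp
    | succ k ih =>
      rw [pow_succ', Module.End.mul_apply, ih, map_smul, h1, smul_smul, add_val]
      congr 3
      push_cast
      ring
  have hq : ∀ k : ℕ, (c ^ k) v = (2 : ZMod 7) ^ ((k : ZMod 3) * s.2).val • v := by
    intro k
    induction k with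
    | zero => simp
    | succ k ih =>
      rw [pow_succ', Module.End.mul_apply, ih, map_smul, h2, smul_smul, add_val]
      congr 3
      push_cast
      ring
  have hw : ∀ a b : ℕ, (h ^ a * c ^ b) v = (2 : ZMod 7) ^ ((a : ZMod 3) * s.1 + b * s.2).val • v := by
    intro a b
    rw [Module.End.mul_apply, hq, map_smul, hp, smul_smul, add_val, add_comm]
  refine ⟨n v, fun h0 => hv (hn v h0), ?_, ?_⟩
  · have := congrArg (fun g : Module.End (ZMod 7) V => g v) e1
    simp only [Module.End.mul_apply] at this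
    have h5 := hw a b
    rw [Module.End.mul_apply] at h5
    rw [this, h5, map_smul]
  · have := congrArg (fun g : Module.End (ZMod 7) V => g v) e2
    simp only [Module.End.mul_apply] at this
    have h5 := hw a' b'
    rw [Module.End.mul_apply] at h5
    rw [this, h5, map_smul]

/-- first rotation -/
def r1 (s : ZMod 3 × ZMod 3) : ZMod 3 × ZMod 3 :=
  (((0 : ℕ) : ZMod 3) * s.1 + ((1 : ℕ) : ZMod 3) * s.2, ((2 : ℕ) : ZMod 3) * s.1 + ((0 : ℕ) : ZMod 3) * s.2)

/-- second rotation -/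
def r2 (s : ZMod 3 × ZMod 3) : ZMod 3 × ZMod 3 :=
  (((1 : ℕ) : ZMod 3) * s.1 + ((1 : ℕ) : ZMod 3) * s.2, ((1 : ℕ) : ZMod 3) * s.1 + ((2 : ℕ) : ZMod 3) * s.2)

theorem transitive : ∀ s t : ZMod 3 × ZMod 3, s ≠ 0 → t ≠ 0 →
    t = s ∨ t = r1 s ∨ t = r1 (r1 s) ∨ t = r1 (r1 (r1 s)) ∨ t = r2 s ∨ t = r1 (r2 s) ∨ t = r1 (r1 (r2 s)) ∨
      t = r1 (r1 (r1 (r2 s))) := by
  decide

/-- the joint eigenvalues -/
def chi (s : ZMod 3 × ZMod 3) : Fin 2 → ZMod 7 := ![2 ^ s.1.val, 2 ^ s.2.val]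

theorem chi_inj : Function.Injective chi := by
  intro s t h
  have h0 := congrFun h 0
  have h1 := congrFun h 1
  simp only [chi, Matrix.cons_val_zero, Matrix.cons_val_one] at h0 h1
  have key : ∀ i j : ZMod 3, (2 : ZMod 7) ^ i.val = 2 ^ j.val → i = j := by decide
  exact Prod.ext (key _ _ h0) (key _ _ h1)

theorem eight_le [Module.Finite (ZMod 7) V] {h c n₁ n₂ : Module.End (ZMod 7) V} (hc : h * c = c * h) (h3 : h ^ 3 = 1)
    (c3 : c ^ 3 = 1) (hne : h ≠ 1) (hn₁ : ∀ v, n₁ v = 0 → v = 0) (hn₂ : ∀ v, n₂ v = 0 → v = 0)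
    (a1 : h * n₁ = n₁ * c) (b1 : c * n₁ = n₁ * (h * h)) (a2 : h * n₂ = n₂ * (h * c)) (b2 : c * n₂ = n₂ * (h * (c * c))) :
    8 ≤ finrank (ZMod 7) V := by
  have : Fact (Nat.Prime 7) := ⟨by norm_num⟩
  obtain ⟨s, hs, hX⟩ := exists_ne hc h3 c3 hne
  have s1 : ∀ s, X h c s → X h c (r1 s) := fun s hs =>
    hs.step hn₁ 0 1 2 0 (by simpa using a1) (by simpa [pow_two] using b1)
  have s2 : ∀ s, X h c s → X h c (r2 s) := fun s hs =>
    hs.step hn₂ 1 1 1 2 (by simpa using a2) (by simpa [pow_two] using b2)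
  have hall : ∀ t : ZMod 3 × ZMod 3, t ≠ 0 → X h c t := by
    intro t ht
    rcases transitive s t hs ht with rfl | rfl | rfl | rfl | rfl | rfl | rfl | rfl
    · exact hX
    · exact s1 _ hX
    · exact s1 _ (s1 _ hX)
    · exact s1 _ (s1 _ (s1 _ hX))
    · exact s2 _ hX
    · exact s1 _ (s2 _ hX)
    · exact s1 _ (s1 _ (s2 _ hX))
    · exact s1 _ (s1 _ (s1 _ (s2 _ hX)))
  choose v hv0 hvh hvc using fun t : {t : ZMod 3 × ZMod 3 // t ≠ 0} => hall t.1 t.2
  have hind := Module.End.independent_iInf_maxGenEigenspace_of_forall_mapsTo (![h, c] : Fin 2 → Module.End (ZMod 7) V)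
    (by
      intro i j μ
      apply Module.End.mapsTo_maxGenEigenspace_of_comm
      fin_cases i <;> fin_cases j
      · exact Commute.refl _
      · exact hc.symm
      · exact hc
      · exact Commute.refl _)
  have hind2 := hind.comp (f := fun t : {t : ZMod 3 × ZMod 3 // t ≠ 0} => chi t.1)
    (chi_inj.comp Subtype.val_injective)
  have hli : LinearIndependent (ZMod 7) v := by
    refine iSupIndep.linearIndependent _ hind2 (fun t => ?_) hv0
    simp only [Function.comp_apply, Submodule.mem_iInf]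
    intro i
    rw [Module.End.mem_maxGenEigenspace]
    refine ⟨1, ?_⟩
    fin_cases i
    · show (h - ((2 : ZMod 7) ^ t.1.1.val) • (1 : Module.End (ZMod 7) V)) ^ 1 • v t = 0
      rw [pow_one]
      show h (v t) - (2 : ZMod 7) ^ t.1.1.val • v t = 0
      rw [hvh t, sub_self]
    · show (c - ((2 : ZMod 7) ^ t.1.2.val) • (1 : Module.End (ZMod 7) V)) ^ 1 • v t = 0
      rw [pow_one]
      show c (v t) - (2 : ZMod 7) ^ t.1.2.val • v t = 0
      rw [hvc t, sub_self]
  have h1 := hli.fintype_card_le_finrank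
  have h2 : Fintype.card {t : ZMod 3 × ZMod 3 // t ≠ 0} = 8 := by decide
  omega

end Cfsg.Agent.H425.RIM.Lin
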