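import Cfsg.Agent.H425.RIM.Lin

/-!
# Normalised lifts of elements of order three in dimension four over `F₇` (helper425)

`H` acts irreducibly on `V = F₇⁴`, `π : H → S` with central kernel. An element `t` of `S` with `t³ = 1` has exactly one
lift `T` to the group of operators, up to scalars, with `T³ = 1`, `det T = 1`.
-/

set_option autoImplicit false

namespace Cfsg.Agent.H425.RIM.Rep

open Module Lin

theorem ar1 : ∀ b : ZMod 7, b ^ 3 = 1 → b ^ 4 = 1 → b = 1 := by decide

theorem ar2 : ∀ d b : ZMod 7, b ^ 3 = 1 → d ^ 3 = b ^ 4 → b = 1 := by decide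

theorem ar3 : ∀ d : ZMod 7, d ^ 3 = 1 → (d ^ 2) ^ 4 * d = 1 := by decide

theorem ar5 : ∀ j : ZMod 3, ((2 : ZMod 7) ^ j.val) ^ 3 = 1 := by decide

theorem ar4 : ∀ d : ZMod 7, d ^ 3 = 1 → d ≠ 0 := by decide

variable {H V S : Type*} [Group H] [AddCommGroup V] [Module (ZMod 7) V] [DistribMulAction H V] [Group S]

/-- the operators -/
def rho (g : H) : Module.End (ZMod 7) V := (DistribSMul.toAddMonoidHom V g).toZModLinearMap 7

theorem rho_apply (g : H) (v : V) : rho g v = g • v := rfl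

theorem rho_mul (g h : H) : (rho (g * h) : Module.End (ZMod 7) V) = rho g * rho h :=
  LinearMap.ext fun v => mul_smul g h v

theorem rho_one : (rho (1 : H) : Module.End (ZMod 7) V) = 1 := LinearMap.ext fun v => one_smul H v

theorem rho_pow (g : H) (n : ℕ) : (rho (g ^ n) : Module.End (ZMod 7) V) = rho g ^ n := by
  induction n with
  | zero => rw [pow_zero, pow_zero, rho_one]
  | succ n ih => rw [pow_succ, pow_succ, rho_mul, ih]

theorem rho_inv_mul (g : H) : (rho g⁻¹ : Module.End (ZMod 7) V) * rho g = 1 := by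
  rw [← rho_mul, inv_mul_cancel, rho_one]

theorem rho_mul_inv (g : H) : (rho g : Module.End (ZMod 7) V) * rho g⁻¹ = 1 := by
  rw [← rho_mul, mul_inv_cancel, rho_one]

/-- the setting -/
structure Irr4 (π : H →* S) : Prop where
  surj : Function.Surjective π
  cen : ∀ k : H, π k = 1 → ∀ h : H, k * h = h * k
  nt : Nontrivial V
  irr : ∀ W : AddSubgroup V, (∀ h : H, ∀ w ∈ W, h • w ∈ W) → W = ⊥ ∨ W = ⊤
  dim : finrank (ZMod 7) V = 4

variable {π : H →* S} (A : Irr4 (V := V) π)

include A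

theorem Irr4.finite : Module.Finite (ZMod 7) V := by
  have : Fact (Nat.Prime 7) := ⟨by norm_num⟩
  exact Module.finite_of_finrank_pos (by rw [A.dim]; norm_num)

/-- an operator of order three which commutes with `H` is a scalar -/
theorem Irr4.scalar {f : Module.End (ZMod 7) V} (hf : ∀ h : H, f * rho h = rho h * f) (f3 : f ^ 3 = 1) :
    ∃ b : ZMod 7, b ^ 3 = 1 ∧ f = b • (1 : Module.End (ZMod 7) V) := by
  have := A.nt
  obtain ⟨v, hv⟩ := exists_ne (0 : V)
  obtain ⟨j, hj⟩ := pj_ne (f := f) hv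
  have h1 := pj_eig f3 j v
  refine ⟨2 ^ j.val, ar5 j, ?_⟩
  let W : AddSubgroup V :=
    { carrier := {v | f v = (2 : ZMod 7) ^ j.val • v}
      zero_mem' := by simp
      add_mem' := by
        intro a b ha hb
        simp only [Set.mem_ofPred_eq] at ha hb ⊢
        rw [map_add, ha, hb, smul_add]
      neg_mem' := by
        intro a ha
        simp only [Set.mem_ofPred_eq] at ha ⊢
        rw [map_neg, ha, smul_neg] }
  have hW : W = ⊥ ∨ W = ⊤ := by
    apply A.irr
    intro h w hw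
    have hw' : f w = (2 : ZMod 7) ^ j.val • w := hw
    show f (h • w) = (2 : ZMod 7) ^ j.val • (h • w)
    have h2 := congrArg (fun g : Module.End (ZMod 7) V => g w) (hf h)
    simp only [Module.End.mul_apply, rho_apply] at h2
    rw [h2, hw', ← rho_apply, map_smul, rho_apply]
  rcases hW with hW | hW
  · exfalso
    have h2 : pj f j v ∈ W := h1
    rw [hW] at h2
    exact hj (AddSubgroup.mem_bot.1 h2)
  · apply LinearMap.ext
    intro w
    have h2 : w ∈ W := by rw [hW]; exact AddSubgroup.mem_top w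
    exact h2

/-- the determinant of a scalar -/
theorem Irr4.det_scalar (b : ZMod 7) : LinearMap.det (b • (1 : Module.End (ZMod 7) V)) = b ^ 4 := by
  have : Fact (Nat.Prime 7) := ⟨by norm_num⟩
  rw [LinearMap.det_smul, A.dim, map_one, mul_one]

theorem Irr4.eq_one {f : Module.End (ZMod 7) V} (hf : ∀ h : H, f * rho h = rho h * f) (f3 : f ^ 3 = 1)
    (hd : LinearMap.det f = 1) : f = 1 := by
  obtain ⟨b, hb, rfl⟩ := A.scalar hf f3
  rw [A.det_scalar] at hd
  have hb1 : b = 1 := ar1 b hb hd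
  rw [hb1, one_smul]

/-- a cube of an operator which is a scalar of order three is trivial -/
theorem Irr4.eq_one_of_cube {f g : Module.End (ZMod 7) V} (hf : ∀ h : H, f * rho h = rho h * f) (f3 : f ^ 3 = 1)
    (hg : g ^ 3 = f) : f = 1 := by
  obtain ⟨b, hb, hfb⟩ := A.scalar hf f3
  have h1 : LinearMap.det g ^ 3 = b ^ 4 := by
    rw [← map_pow, hg, hfb, A.det_scalar]
  rw [hfb, ar2 _ _ hb h1, one_smul]

omit A in
/-- `T` is a normalised lift of `t` -/
def NL (π : H →* S) (t : S) (T : Module.End (ZMod 7) V) : Prop :=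
  T ^ 3 = 1 ∧ LinearMap.det T = 1 ∧ ∃ (g : H) (a : ZMod 7), a ≠ 0 ∧ π g = t ∧ T = a • rho g

theorem Irr4.comm_of_ker {k : H} (hk : π k = 1) (h : H) : (rho k : Module.End (ZMod 7) V) * rho h = rho h * rho k := by
  rw [← rho_mul, A.cen k hk h, rho_mul]

theorem Irr4.unique {t : S} {T T' : Module.End (ZMod 7) V} (h : NL π t T) (h' : NL π t T') : T = T' := by
  have : Fact (Nat.Prime 7) := ⟨by norm_num⟩
  obtain ⟨c3, d1, g, a, ha, hg, hT⟩ := h
  obtain ⟨c3', d1', g', a', ha', hg', hT'⟩ := h'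
  have hk : π (g⁻¹ * g') = 1 := by rw [map_mul, map_inv, hg, hg', inv_mul_cancel]
  set z : Module.End (ZMod 7) V := (a⁻¹ * a') • rho (g⁻¹ * g') with hz
  have hTz : T' = T * z := by
    rw [hT', hT, hz, smul_mul_smul_comm, ← rho_mul, mul_inv_cancel_left, ← mul_assoc, mul_inv_cancel₀ ha, one_mul]
  have hzc : ∀ h : H, z * rho h = rho h * z := by
    intro h
    rw [hz, smul_mul_assoc, mul_smul_comm, A.comm_of_ker hk]
  have hTc : Commute T z := by
    show T * z = z * T
    rw [hT]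
    exact (smul_mul_assoc a (rho g) z).trans ((congrArg (a • ·) (hzc g).symm).trans (mul_smul_comm a z (rho g)).symm)
  have hz3 : z ^ 3 = 1 := by
    have h1 := c3'
    rw [hTz, hTc.mul_pow, c3, one_mul] at h1
    exact h1
  have hzd : LinearMap.det z = 1 := by
    have h1 := d1'
    rw [hTz, map_mul, d1, one_mul] at h1
    exact h1
  rw [hTz, A.eq_one hzc hz3 hzd, mul_one]

omit A in
theorem NL.conj {t : S} {T : Module.End (ZMod 7) V} (h : NL π t T) (n : H) :
    NL π ((π n)⁻¹ * t * π n) (rho n⁻¹ * T * rho n) := by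
  obtain ⟨c3, d1, g, a, ha, hg, hT⟩ := h
  refine ⟨?_, ?_, n⁻¹ * g * n, a, ha, by rw [map_mul, map_mul, map_inv, hg], ?_⟩
  · have h1 : rho n⁻¹ * T * rho n * (rho n⁻¹ * T * rho n) * (rho n⁻¹ * T * rho n) = rho n⁻¹ * (T ^ 3) * rho n := by
      have h2 : (rho n : Module.End (ZMod 7) V) * rho n⁻¹ = 1 := rho_mul_inv n
      calc rho n⁻¹ * T * rho n * (rho n⁻¹ * T * rho n) * (rho n⁻¹ * T * rho n) =
          rho n⁻¹ * T * (rho n * rho n⁻¹) * T * (rho n * rho n⁻¹) * T * rho n := by noncomm_ring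
        _ = rho n⁻¹ * T ^ 3 * rho n := by rw [h2]; noncomm_ring
    rw [pow_succ, pow_two, h1, c3, mul_one, rho_inv_mul]
  · rw [map_mul, map_mul, d1, mul_one, ← map_mul, rho_inv_mul, map_one]
  · rw [hT, rho_mul, rho_mul, mul_smul_comm, smul_mul_assoc]

/-- the conjugation relation -/
theorem Irr4.rel {t s : S} {T U : Module.End (ZMod 7) V} (hT : NL π t T) (hU : NL π s U) {n : H}
    (h : t * π n = π n * s) : T * rho n = rho n * U := by
  have h1 := hT.conj n
  have h2 : (π n)⁻¹ * t * π n = s := by rw [mul_assoc, h, inv_mul_cancel_left]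
  rw [h2] at h1
  have h3 := A.unique h1 hU
  rw [← h3, ← mul_assoc, ← mul_assoc, rho_mul_inv, one_mul]

theorem Irr4.comm {t s : S} {T U : Module.End (ZMod 7) V} (hT : NL π t T) (hU : NL π s U) (h : t * s = s * t) :
    T * U = U * T := by
  obtain ⟨-, -, g, a, ha, hg, hU'⟩ := hU
  have h1 := A.rel (n := g) hT hT (by rw [hg, h])
  rw [hU', mul_smul_comm, smul_mul_assoc, h1]

theorem Irr4.mul {t s : S} {T U : Module.End (ZMod 7) V} (hT : NL π t T) (hU : NL π s U) (h : t * s = s * t) :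
    NL π (t * s) (T * U) := by
  have : Fact (Nat.Prime 7) := ⟨by norm_num⟩
  have hc := A.comm hT hU h
  obtain ⟨c3, d1, g, a, ha, hg, hT'⟩ := hT
  obtain ⟨c3', d1', g', a', ha', hg', hU'⟩ := hU
  refine ⟨?_, by rw [map_mul, d1, d1', one_mul], g * g', a * a', mul_ne_zero ha ha', by rw [map_mul, hg, hg'], ?_⟩
  · have h1 : Commute T U := hc
    rw [h1.mul_pow, c3, c3', one_mul]
  · rw [hT', hU', smul_mul_smul_comm, rho_mul]

/-- **Existence of the normalised lift.** -/
theorem Irr4.exists_nl [Finite H] {t : S} (ht : t ^ 3 = 1) : ∃ T : Module.End (ZMod 7) V, NL π t T := by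
  classical
  have : Fact (Nat.Prime 7) := ⟨by norm_num⟩
  obtain ⟨g₀, hg₀⟩ := A.surj t
  -- a lift of 3-power order
  obtain ⟨g, hg, j, hj⟩ : ∃ g : H, π g = t ∧ ∃ j : ℕ, g ^ 3 ^ j = 1 := by
    obtain ⟨j, m, hm, hjm⟩ := Nat.exists_eq_pow_mul_and_not_dvd (orderOf_pos g₀).ne' 3 (by norm_num)
    have hco : Nat.Coprime m 3 := ((Nat.Prime.coprime_iff_not_dvd Nat.prime_three).2 hm).symm
    obtain ⟨a, -, ha⟩ := Nat.exists_mul_mod_eq_one_of_coprime hco (by norm_num)
    refine ⟨g₀ ^ (m * a), ?_, j, ?_⟩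
    · rw [map_pow, hg₀]
      have h1 : m * a = 3 * (m * a / 3) + 1 := by omega
      rw [h1, pow_succ, pow_mul, ht, one_pow, one_mul]
    · rw [← pow_mul, show m * a * 3 ^ j = (3 ^ j * m) * a by ring, ← hjm, pow_mul, pow_orderOf_eq_one, one_pow]
  -- `ρ(g)³ = 1`
  have key : ∀ j : ℕ, (rho g : Module.End (ZMod 7) V) ^ 3 ^ (j + 1) = 1 → (rho g : Module.End (ZMod 7) V) ^ 3 = 1 := by
    intro j
    induction j with
    | zero => intro h; simpa using h
    | succ j ih =>
      intro h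
      apply ih
      have e1 : ((rho g : Module.End (ZMod 7) V) ^ 3 ^ j) ^ 3 = rho g ^ 3 ^ (j + 1) := by
        rw [← pow_mul, ← pow_succ]
      have e2 : ((rho g : Module.End (ZMod 7) V) ^ 3 ^ (j + 1)) ^ 3 = 1 := by
        rw [← pow_mul, ← pow_succ, h]
      refine A.eq_one_of_cube (fun h => ?_) e2 e1
      rw [← rho_pow]
      apply A.comm_of_ker
      rw [map_pow, hg, pow_succ, mul_comm, pow_mul, ht, one_pow]
  have h3 : (rho g : Module.End (ZMod 7) V) ^ 3 = 1 := by
    apply key j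
    rw [← rho_pow, pow_succ, pow_mul, hj, one_pow, rho_one]
  have hd : LinearMap.det (rho g : Module.End (ZMod 7) V) ^ 3 = 1 := by rw [← map_pow, h3, map_one]
  set d := LinearMap.det (rho g : Module.End (ZMod 7) V) with hdd
  have hd0 : d ≠ 0 := ar4 d hd
  refine ⟨(d ^ 2) • rho g, ?_, ?_, g, d ^ 2, pow_ne_zero 2 hd0, hg, rfl⟩
  · rw [smul_pow, h3, ← pow_mul, mul_comm, pow_mul, hd, one_pow, one_smul]
  · rw [LinearMap.det_smul, A.dim, ← hdd]
    exact ar3 d hd

end Cfsg.Agent.H425.RIM.Rep
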