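import Cfsg.Agent.H665.RIM.Defs

/-!
# Tools for the rows `EK p S` of S4816 (helper425)

`Sit p K N φ π` : the affine situation of `EK p S` (`π : H → S` surjective with kernel `K`, `K / N` central).
* `K_cen` : `K` is central in `H`;
* `eq_top` : a subgroup of `H` which maps onto `S` is `H`;
* `stab_ne_top`, `dvd_stab` : the image in `S` of the stabilizer of `v ≠ 0` is a proper subgroup of order divisible by `p`;
* `card_modEq` : an element of prime order `q` without fixed vectors: `|V| ≡ 1` modulo `q`;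
* `union` : `p² ∤ |S|`: `|V| ≤ |S : N_S(⟨x⟩)| |C_V(x)|` for `x` of order `p`;
* `two_gen` : `⟨x, x^g⟩ = S`: `|C_V(x)|² ≤ |V|`.
-/

set_option autoImplicit false
set_option linter.unusedSectionVars false

namespace Cfsg.Agent.H425.RIM.Tool

open Subgroup Cfsg.Agent.H229.RIM
open scoped commutatorElement

variable {p : ℕ} {H V S : Type*} [Group H] [Finite H] [AddCommGroup V] [Finite V] [DistribMulAction H V]
  [Group S]

/-- The situation of `EK p S`. -/
structure Sit (p : ℕ) {H V S : Type*} [Group H] [Finite H] [AddCommGroup V] [Finite V] [DistribMulAction H V]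
    [Group S] (K N : Subgroup H) (φ : N →* ℂˣ) (π : H →* S) : Prop where
  core : CoreP (V := V) p K N φ
  surj : Function.Surjective π
  ker : π.ker = K
  cen : ∀ k ∈ K, ∀ h : H, ⁅k, h⁆ ∈ N

variable {K N : Subgroup H} {φ : N →* ℂˣ} {π : H →* S} (A : Sit (V := V) p K N φ π)

include A

theorem Sit.K_le : K ≤ center H := by
  have h1 : ⁅(K : Subgroup H), (⊤ : Subgroup H)⁆ ≤ N := by
    rw [commutator_le]
    intro k hk h _
    exact A.cen k hk h
  have h2 : ⁅⁅(K : Subgroup H), (⊤ : Subgroup H)⁆, (⊤ : Subgroup H)⁆ = ⊥ := by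
    rw [commutator_eq_bot_iff_le_centralizer, coe_top, centralizer_univ]
    exact h1.trans A.core.cen
  have h3 := commutator_commutator_eq_bot_of_rotate (H₁ := (⊤ : Subgroup H)) (H₂ := ⊤) (H₃ := K)
    (by rw [commutator_comm (⊤ : Subgroup H) K]; exact h2) h2
  have h4 : ⁅(⊤ : Subgroup H), (⊤ : Subgroup H)⁆ = ⊤ := A.core.perf
  rw [h4, commutator_comm, commutator_eq_bot_iff_le_centralizer, coe_top, centralizer_univ] at h3
  exact h3

theorem Sit.K_cen {k : H} (hk : π k = 1) (h : H) : k * h = h * k := by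
  have h1 : k ∈ K := by rw [← A.ker]; exact hk
  exact (mem_center_iff.1 (A.K_le h1) h).symm

theorem Sit.eq_top {L : Subgroup H} (hL : L.map π = ⊤) : L = ⊤ := by
  have h4 : ⁅(⊤ : Subgroup H), (⊤ : Subgroup H)⁆ = ⊤ := A.core.perf
  rw [eq_top_iff, ← h4, commutator_le]
  have key : ∀ g : H, ∃ l ∈ L, ∃ k, π k = 1 ∧ g = l * k := by
    intro g
    have h1 : π g ∈ L.map π := by rw [hL]; exact mem_top _
    obtain ⟨l, hl, h2⟩ := h1
    exact ⟨l, hl, l⁻¹ * g, by rw [map_mul, map_inv, h2, inv_mul_cancel], by group⟩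
  rintro a - b -
  obtain ⟨l, hl, k, hk, rfl⟩ := key a
  obtain ⟨l', hl', k', hk', rfl⟩ := key b
  have c1 := A.K_cen hk
  have c2 := A.K_cen hk'
  have h5 : ⁅l * k, l' * k'⁆ = ⁅l, l'⁆ := by
    rw [commutatorElement_def, commutatorElement_def]
    have e1 : l * k * (l' * k') = l * l' * (k * k') := by
      calc l * k * (l' * k') = l * (k * l') * k' := by group
        _ = l * l' * (k * k') := by rw [c1]; group
    have e2 : (l * k)⁻¹ * (l' * k')⁻¹ = (k * k')⁻¹ * (l⁻¹ * l'⁻¹) := by
      have e3 : (l' * k') * (l * k) = l' * l * (k * k') := by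
        calc (l' * k') * (l * k) = l' * (k' * l) * k := by group
          _ = l' * l * (k' * k) := by rw [c2]; group
          _ = l' * l * (k * k') := by rw [c2 k]
      calc (l * k)⁻¹ * (l' * k')⁻¹ = ((l' * k') * (l * k))⁻¹ := by group
        _ = (k * k')⁻¹ * (l⁻¹ * l'⁻¹) := by rw [e3]; group
    calc l * k * (l' * k') * (l * k)⁻¹ * (l' * k')⁻¹ = (l * k * (l' * k')) * ((l * k)⁻¹ * (l' * k')⁻¹) := by group
      _ = l * l' * l⁻¹ * l'⁻¹ := by rw [e1, e2]; group
  rw [h5]
  exact L.mul_mem (L.mul_mem (L.mul_mem hl hl') (L.inv_mem hl)) (L.inv_mem hl')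

theorem Sit.K_ne_top : K ≠ ⊤ := by
  intro h
  obtain ⟨a, b, hab⟩ := A.core.simp.toNontrivial.exists_pair_ne
  obtain ⟨a, rfl⟩ := QuotientGroup.mk_surjective a
  obtain ⟨b, rfl⟩ := QuotientGroup.mk_surjective b
  exact hab (QuotientGroup.eq.2 (by rw [h]; exact mem_top _))

theorem Sit.eq_zero {v : V} (hv : ∀ h : H, h • v = v) : v = 0 := by
  let W : AddSubgroup V :=
    { carrier := {v | ∀ h : H, h • v = v}
      zero_mem' := fun h => smul_zero h
      add_mem' := fun {a b} ha hb h => by rw [smul_add, ha, hb]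
      neg_mem' := fun {a} ha h => by rw [smul_neg, ha] }
  rcases A.core.irr W (fun h w hw => by rw [hw h]; exact hw) with h | h
  · have : v ∈ W := hv
    rw [h] at this
    exact AddSubgroup.mem_bot.1 this
  · exfalso
    apply A.K_ne_top
    rw [eq_top_iff]
    intro g _
    apply A.core.NK
    rw [← A.core.ker]
    intro v
    have : v ∈ W := by rw [h]; exact AddSubgroup.mem_top v
    exact this g

theorem Sit.stab_ne_top {v : V} (hv : v ≠ 0) : (MulAction.stabilizer H v).map π ≠ ⊤ := by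
  intro h
  have h1 := A.eq_top h
  apply hv
  apply A.eq_zero
  intro g
  have : g ∈ MulAction.stabilizer H v := by rw [h1]; exact mem_top g
  exact this

theorem Sit.dvd_stab (hp : p.Prime) (v : V) : p ∣ Nat.card ↥((MulAction.stabilizer H v).map π) := by
  have h1 := (MulAction.stabilizer H v).card_mul_index
  have h2 : p ∣ Nat.card H := by
    have h3 := card_eq_card_quotient_mul_card_subgroup K
    rw [h3]
    exact dvd_mul_of_dvd_left A.core.pS _
  rw [← h1] at h2
  have h3 : p ∣ Nat.card ↥(MulAction.stabilizer H v) :=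
    ((hp.dvd_mul).1 h2).resolve_right (A.core.P1 v)
  -- an element of order `p`
  have : Fact p.Prime := ⟨hp⟩
  obtain ⟨u, hu⟩ := exists_prime_orderOf_dvd_card' p h3
  have hu' : orderOf (u : H) = p := by rw [Subgroup.orderOf_coe, hu]
  have h4 : π u ≠ 1 := by
    intro h
    apply A.core.pK
    have h5 : (u : H) ∈ K := by rw [← A.ker]; exact h
    rw [← hu', ← Subgroup.orderOf_mk _ h5]
    exact orderOf_dvd_natCard _
  have h5 : orderOf (π (u : H)) = p := orderOf_eq_prime (by rw [← map_pow, ← hu', pow_orderOf_eq_one, map_one]) h4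
  have h6 : π (u : H) ∈ (MulAction.stabilizer H v).map π := mem_map_of_mem _ u.2
  rw [← h5, ← Subgroup.orderOf_mk _ h6]
  exact orderOf_dvd_natCard _

theorem Sit.card_V (hp : p.Prime) : ∃ d, 0 < d ∧ Nat.card V = p ^ d := by
  have : Fact p.Prime := ⟨hp⟩
  have := Fintype.ofFinite V
  have h1 : IsPGroup p (Multiplicative V) := by
    intro g
    refine ⟨1, ?_⟩
    have h2 := A.core.exp (Multiplicative.toAdd g)
    rw [pow_one]
    exact congrArg Multiplicative.ofAdd h2
  obtain ⟨d, hd⟩ := (IsPGroup.iff_card).1 h1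
  have hd' : Nat.card V = p ^ d := hd
  refine ⟨d, ?_, hd'⟩
  rcases Nat.eq_zero_or_pos d with h | h
  · exfalso
    rw [h, pow_zero] at hd'
    have := A.core.nt
    have h3 := Finite.one_lt_card (α := V)
    omega
  · exact h

omit A in
/-- the fixed vectors -/
def fx (V : Type*) [AddCommGroup V] [DistribMulAction H V] (x : H) : AddSubgroup V where
  carrier := {v | x • v = v}
  zero_mem' := smul_zero x
  add_mem' := fun {a b} (ha : x • a = a) (hb : x • b = b) => by
    show x • (a + b) = a + b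
    rw [smul_add, ha, hb]
  neg_mem' := fun {a} (ha : x • a = a) => by
    show x • (-a) = -a
    rw [smul_neg, ha]

omit A in
theorem mem_fx {x : H} {v : V} : v ∈ fx V x ↔ x • v = v := Iff.rfl

omit A in
theorem card_modEq {q : ℕ} (hq : q.Prime) {y : H} {j : ℕ} (hy : y ^ q ^ j = 1) (h0 : ∀ v : V, y • v = v → v = 0) :
    Nat.card V ≡ 1 [MOD q] := by
  have : Fact q.Prime := ⟨hq⟩
  have h1 : IsPGroup q (zpowers y) := by
    have h2 : orderOf y ∣ q ^ j := orderOf_dvd_of_pow_eq_one hy
    obtain ⟨i, -, hi⟩ := (Nat.dvd_prime_pow hq).1 h2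
    exact IsPGroup.of_card (n := i) (by rw [Nat.card_zpowers, hi])
  have h2 := h1.card_modEq_card_fixedPoints V
  have h3 : Nat.card ↑(MulAction.fixedPoints (zpowers y) V) = 1 := by
    rw [Nat.card_eq_one_iff_unique]
    refine ⟨⟨fun a b => ?_⟩, ⟨⟨0, fun g => smul_zero _⟩⟩⟩
    have ha := h0 _ (a.2 ⟨y, mem_zpowers y⟩)
    have hb := h0 _ (b.2 ⟨y, mem_zpowers y⟩)
    exact Subtype.ext (ha.trans hb.symm)
  rw [h3] at h2
  exact h2

omit A [Finite V] [DistribMulAction H V] [AddCommGroup V] in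
/-- a lift of `q`-power order of an element of order `q` -/
theorem exists_lift (hs : Function.Surjective π) {q : ℕ} (hq : q.Prime) {t : S} (ht : t ^ q = 1) :
    ∃ g : H, π g = t ∧ ∃ j : ℕ, g ^ q ^ j = 1 := by
  obtain ⟨g₀, hg₀⟩ := hs t
  obtain ⟨j, m, hm, hjm⟩ := Nat.exists_eq_pow_mul_and_not_dvd (orderOf_pos g₀).ne' q hq.one_lt.ne'
  have hco : Nat.Coprime m q := ((Nat.Prime.coprime_iff_not_dvd hq).2 hm).symm
  obtain ⟨a, -, ha⟩ := Nat.exists_mul_mod_eq_one_of_coprime hco hq.one_lt
  refine ⟨g₀ ^ (m * a), ?_, j, ?_⟩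
  · rw [map_pow, hg₀]
    have h1 : m * a = q * (m * a / q) + 1 := by
      have := Nat.div_add_mod (m * a) q
      rw [ha] at this
      exact this.symm
    rw [h1, pow_succ, pow_mul, ht, one_pow, one_mul]
  · rw [← pow_mul, show m * a * q ^ j = (q ^ j * m) * a by ring, ← hjm, pow_mul, pow_orderOf_eq_one, one_pow]

/-- a lift of order `p` of an element of order `p` -/
theorem Sit.exists_lift_p (hp : p.Prime) {t : S} (ht : orderOf t = p) : ∃ x : H, π x = t ∧ orderOf x = p := by
  have : Fact p.Prime := ⟨hp⟩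
  obtain ⟨g, hg, j, hj⟩ := exists_lift A.surj hp (t := t) (by rw [← ht]; exact pow_orderOf_eq_one t)
  refine ⟨g, hg, ?_⟩
  have h1 : g ^ p ∈ K := by
    rw [← A.ker]
    show π (g ^ p) = 1
    rw [map_pow, hg, ← ht]
    exact pow_orderOf_eq_one t
  have h2 : orderOf (g ^ p) ∣ p ^ j := orderOf_dvd_of_pow_eq_one (by rw [← pow_mul, mul_comm, pow_mul, hj, one_pow])
  obtain ⟨i, -, hi⟩ := (Nat.dvd_prime_pow hp).1 h2
  have h3 : g ^ p = 1 := by
    rcases Nat.eq_zero_or_pos i with h | h
    · rw [h, pow_zero] at hi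
      exact orderOf_eq_one_iff.1 hi
    · exfalso
      apply A.core.pK
      have h4 : p ∣ orderOf (g ^ p) := by rw [hi]; exact dvd_pow_self p h.ne'
      refine h4.trans ?_
      rw [← Subgroup.orderOf_mk _ h1]
      exact orderOf_dvd_natCard _
  refine orderOf_eq_prime h3 ?_
  rintro rfl
  rw [map_one] at hg
  rw [← hg, orderOf_one] at ht
  exact hp.one_lt.ne ht

/-- **Two generation.** -/
theorem Sit.two_gen {x g : H} (hgen : ∀ L : Subgroup S, π x ∈ L → π (g * x * g⁻¹) ∈ L → L = ⊤) :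
    Nat.card ↥(fx V x) * Nat.card ↥(fx V x) ≤ Nat.card V := by
  rw [← Nat.card_prod]
  refine Nat.card_le_card_of_injective (fun a : ↥(fx V x) × ↥(fx V x) => (a.1 : V) + g • (a.2 : V)) ?_
  rintro ⟨a, b⟩ ⟨a', b'⟩ h
  simp only at h
  have h1 : ((a : V) - a') = g • ((b' : V) - b) := by
    rw [smul_sub]
    have := h
    rw [← sub_eq_zero] at this ⊢
    rw [← this]
    abel
  have h2 : ((a : V) - a') = 0 := by
    apply A.eq_zero
    have h3 : x • ((a : V) - a') = (a : V) - a' := (fx V x).sub_mem a.2 a'.2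
    have h4 : (g * x * g⁻¹) • ((a : V) - a') = (a : V) - a' := by
      rw [h1, mul_smul, mul_smul, inv_smul_smul]
      have h5 : x • ((b' : V) - b) = (b' : V) - b := (fx V x).sub_mem b'.2 b.2
      rw [h5]
    have h5 : (MulAction.stabilizer H ((a : V) - a')).map π = ⊤ :=
      hgen _ (mem_map_of_mem _ h3) (mem_map_of_mem _ h4)
    have h6 := A.eq_top h5
    intro k
    have : k ∈ MulAction.stabilizer H ((a : V) - a') := by rw [h6]; exact mem_top k
    exact this
  have h3 : (b' : V) - b = 0 := by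
    rw [h2] at h1
    have := congrArg (g⁻¹ • ·) h1
    simpa using this.symm
  exact Prod.ext (Subtype.ext (sub_eq_zero.1 h2)) (Subtype.ext (sub_eq_zero.1 h3).symm)

/-- **The union bound.** -/
theorem Sit.union (hp : p.Prime) (hsq : ¬ p ^ 2 ∣ Nat.card S) {x : H} (hx : orderOf x = p) :
    Nat.card V ≤ (normalizer ((zpowers (π x) : Subgroup S) : Set S)).index * Nat.card ↥(fx V x) := by
  classical
  have : Fact p.Prime := ⟨hp⟩
  have hfS : Finite S := Finite.of_surjective _ A.surj
  set M := (normalizer ((zpowers (π x) : Subgroup S) : Set S)).comap π with hM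
  have hidx : M.index = (normalizer ((zpowers (π x) : Subgroup S) : Set S)).index :=
    index_comap_of_surjective _ A.surj
  rw [← hidx]
  -- `M` normalizes `⟨x⟩`
  have hMx : ∀ m ∈ M, ∀ v ∈ fx V x, m • v ∈ fx V x := by
    intro m hm v hv
    have h1 : (π m)⁻¹ * π x * (π m)⁻¹⁻¹ ∈ zpowers (π x) :=
      (mem_normalizer_iff.1 (inv_mem hm : (π m)⁻¹ ∈ normalizer ((zpowers (π x) : Subgroup S) : Set S)) (π x)).1
        (mem_zpowers _)
    obtain ⟨j, hj⟩ := mem_powers_iff_mem_zpowers.2 h1
    have hj' : (π x) ^ j = (π m)⁻¹ * π x * (π m)⁻¹⁻¹ := hj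
    have h2 : π ((x ^ j)⁻¹ * (m⁻¹ * x * m)) = 1 := by
      rw [map_mul, map_mul, map_mul, map_inv, map_pow, map_inv, hj', inv_inv]
      group
    set k := (x ^ j)⁻¹ * (m⁻¹ * x * m) with hk
    have h3 : m⁻¹ * x * m = x ^ j * k := by rw [hk]; group
    have hc : Commute (x ^ j) k := (A.K_cen h2 _).symm
    have h4 : k ^ p = 1 := by
      have h5 : (m⁻¹ * x * m) ^ p = 1 := by
        have h6 := conj_pow (i := p) (a := m⁻¹) (b := x)
        rw [inv_inv] at h6
        rw [h6, ← hx, pow_orderOf_eq_one, mul_one, inv_mul_cancel]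
      rw [h3, hc.mul_pow, ← pow_mul, mul_comm j p, pow_mul, ← hx, pow_orderOf_eq_one, one_pow, one_mul] at h5
      rw [← hx]; exact h5
    have hkK : k ∈ K := by rw [← A.ker]; exact h2
    have h5 : k = 1 := by
      by_contra hne
      apply A.core.pK
      rw [← orderOf_eq_prime h4 hne, ← Subgroup.orderOf_mk _ hkK]
      exact orderOf_dvd_natCard _
    rw [h5, mul_one] at h3
    show x • (m • v) = m • v
    have h6 : x * m = m * x ^ j := by rw [← h3]; group
    have hv' : x • v = v := hv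
    have h7 : (x ^ j) • v = v := by
      have : ∀ n : ℕ, (x ^ n) • v = v := by
        intro n
        induction n with
        | zero => rw [pow_zero, one_smul]
        | succ n ih => rw [pow_succ, mul_smul, hv', ih]
      exact this j
    rw [← mul_smul, h6, mul_smul, h7]
  -- the Sylow subgroups
  have hH2 : ¬ p ^ 2 ∣ Nat.card H := by
    intro h
    have h1 : Nat.card H = Nat.card S * Nat.card K := by
      rw [card_eq_card_quotient_mul_card_subgroup K, ← A.ker,
        Nat.card_congr (QuotientGroup.quotientKerEquivOfSurjective π A.surj).toEquiv]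
    rw [h1] at h
    have hco : (p ^ 2).Coprime (Nat.card K) := Nat.Coprime.pow_left 2 ((hp.coprime_iff_not_dvd).2 A.core.pK)
    exact hsq (hco.dvd_of_dvd_mul_right h)
  have hsyl : ∀ u : H, orderOf u = p → ∃ g : H, ∃ j : ℕ, g * x * g⁻¹ = u ^ j := by
    intro u hu
    have hc : ∀ w : H, orderOf w = p → ∃ P : Sylow p H, (P : Subgroup H) = zpowers w := by
      intro w hw
      have h1 : IsPGroup p (zpowers w) := IsPGroup.of_card (n := 1) (by rw [Nat.card_zpowers, hw, pow_one])
      obtain ⟨P, hP⟩ := h1.exists_le_sylow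
      refine ⟨P, ?_⟩
      symm
      refine eq_of_le_of_card_ge hP ?_
      obtain ⟨n, hn⟩ := (IsPGroup.iff_card).1 P.2
      rw [Nat.card_zpowers, hw, hn]
      have h2 : n < 2 := by
        by_contra h3
        push Not at h3
        exact hH2 ((pow_dvd_pow p h3).trans (hn ▸ card_subgroup_dvd_card _))
      calc p ^ n ≤ p ^ 1 := Nat.pow_le_pow_right hp.pos (by omega)
        _ = p := pow_one p
    obtain ⟨P, hP⟩ := hc x hx
    obtain ⟨Q, hQ⟩ := hc u hu
    obtain ⟨g, hg⟩ := MulAction.exists_smul_eq H P Q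
    have h1 : g * x * g⁻¹ ∈ zpowers u := by
      rw [← hQ, ← hg]
      show g * x * g⁻¹ ∈ ((g • P : Sylow p H) : Subgroup H)
      rw [Sylow.coe_subgroup_smul]
      exact Subgroup.smul_mem_pointwise_smul x (MulAut.conj g) _ (by rw [hP]; exact mem_zpowers x)
    obtain ⟨j, hj⟩ := mem_powers_iff_mem_zpowers.2 h1
    exact ⟨g, j, hj.symm⟩
  -- the covering
  have hcov : ∀ v : V, ∃ (q : H ⧸ M) (w : ↥(fx V x)), q.out • (w : V) = v := by
    intro v
    have h1 : p ∣ Nat.card ↥(MulAction.stabilizer H v) := by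
      have h2 : p ∣ Nat.card H := by
        have h3 := card_eq_card_quotient_mul_card_subgroup K
        rw [h3]
        exact dvd_mul_of_dvd_left A.core.pS _
      rw [← (MulAction.stabilizer H v).card_mul_index] at h2
      exact ((hp.dvd_mul).1 h2).resolve_right (A.core.P1 v)
    obtain ⟨u, hu⟩ := exists_prime_orderOf_dvd_card' p h1
    have hu' : orderOf (u : H) = p := by rw [Subgroup.orderOf_coe, hu]
    obtain ⟨g, j, hg⟩ := hsyl u hu'
    have h2 : (g * x * g⁻¹) • v = v := by
      rw [hg]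
      exact (MulAction.stabilizer H v).pow_mem u.2 j
    have h3 : g⁻¹ • v ∈ fx V x := by
      show x • (g⁻¹ • v) = g⁻¹ • v
      rw [← mul_smul]
      have h4 := congrArg (g⁻¹ • ·) h2
      simp only [← mul_smul] at h4
      rw [← h4]
      congr 1
      group
    set q : H ⧸ M := (g : H ⧸ M) with hq
    have h4 : q.out⁻¹ * g ∈ M := by
      have h5 : (q.out : H ⧸ M) = (g : H ⧸ M) := by rw [hq]; exact Quotient.out_eq' _
      exact QuotientGroup.eq.1 h5
    refine ⟨q, ⟨(q.out⁻¹ * g) • (g⁻¹ • v), hMx _ h4 _ h3⟩, ?_⟩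
    show q.out • ((q.out⁻¹ * g) • (g⁻¹ • v)) = v
    rw [← mul_smul, ← mul_smul]
    have : q.out * (q.out⁻¹ * g) * g⁻¹ = 1 := by group
    rw [this, one_smul]
  have hsurj : Function.Surjective (fun a : (H ⧸ M) × ↥(fx V x) => a.1.out • (a.2 : V)) := by
    intro v
    obtain ⟨q, w, h⟩ := hcov v
    exact ⟨(q, w), h⟩
  have := Nat.card_le_card_of_surjective _ hsurj
  rwa [Nat.card_prod, ← index_eq_card] at this

end Cfsg.Agent.H425.RIM.Tool
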